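import Cfsg.Agent.PG.Mod
import Cfsg.Agent.FT.Final
import Cfsg.Agent.Perm2.Socle
import Cfsg.Agent.PSL2Rec.TI

/-!
A finite group whose prime graph is shared by only finitely many groups is almost simple.
-/

set_option autoImplicit false

namespace Cfsg.Agent.PG

open Subgroup Cfsg.Agent.Local Cfsg.Agent.FT Cfsg.Agent.Perm2

variable {G : Type*} [Group G] [Finite G]

theorem exists_ea {K : Subgroup G} (hK : Group.IsNilpotent K) {p : ℕ} (hp : p.Prime)
    (h : p ∣ Nat.card K) :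
    ∃ V : Subgroup G, V ≠ ⊥ ∧ IsEA p V ∧ V ≤ K ∧ K ≤ 𝐂(V) ∧ 𝐍(K) ≤ 𝐍(V) := by
  have := Fact.mk hp
  have l1 : Ohm 1 (core {p} (cen K)) ≤ cen K := (Ohm_le _ _).trans (core_le _ _)
  refine ⟨Ohm 1 (core {p} (cen K)), fun e => ?_, isEA_Ohm1_of_comm (isPGroup_core p _)
    (isMulCommutative_of_le (isMulCommutative_cen K) (core_le _ _)), l1.trans (cen_le K),
    (le_cent_cen K).trans (centralizer_le l1),
    (((Ohm_chr _ _).trans (core_chr _ _)).trans (cen_chr K)).norm_le⟩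
  rw [Ohm1_eq_bot_iff, isSylowIn_eq_bot_iff (isSylowIn_core_of_nil p
    (isNilpotent_of_isMulCommutative (isMulCommutative_cen K)))] at e
  have : p ∈ primesOf (cen K) := primesOf_cen_of_nil hK ▸ mem_primesOf.2 ⟨hp, h⟩
  exact e (mem_primesOf.1 this).2

theorem exists_supp {M T : Subgroup G} [M.Normal] {q : ℕ} [Fact q.Prime] (hT : IsSylowIn q T M)
    (g : G) : ∃ l ∈ 𝐍(T), l⁻¹ * g ∈ M := by
  obtain ⟨n, hn, h⟩ := hT.frattini (g := g) (by rw [normalizer_eq_top]; trivial)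
  refine ⟨_, h, ?_⟩
  rw [show (n⁻¹ * g)⁻¹ * g = g⁻¹ * n * g⁻¹⁻¹ by group]
  exact Normal.conj_mem ‹_› n hn _

theorem cyclic_quot {M : Subgroup G} [M.Normal] {p q : ℕ} (hp : p.Prime) (hq : q.Prime)
    (hp2 : p ≠ 2) (hpq : p ≠ q) (hqM : q ∣ Nat.card M) (h : ¬ Adj G p q) (P : Subgroup (G ⧸ M))
    (hP : IsPGroup p P) : IsCyclic P := by
  have := Fact.mk hp
  have := Fact.mk hq
  obtain ⟨Q, hQ⟩ := exists_isSylowIn q M
  let f : 𝐍(Q) →* G ⧸ M := (QuotientGroup.mk' M).comp (𝐍(Q)).subtype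
  have hf : Function.Surjective f := fun y => by
    obtain ⟨g, rfl⟩ := QuotientGroup.mk_surjective y
    obtain ⟨l, hl, h⟩ := exists_supp hQ g
    exact ⟨⟨l, hl⟩, QuotientGroup.eq.2 h⟩
  obtain ⟨P', hP'⟩ := hP.exists_le_sylow
  obtain ⟨S, rfl⟩ := Sylow.mapSurjective_surjective hf p P'
  have h1 : IsCyclic ((S : Subgroup 𝐍(Q)).map (𝐍(Q)).subtype) := by
    refine (PSL2Rec.cyclic_or_quaternion_of_fpf (S.isPGroup'.map _) (map_subtype_le _)
      (fun e => (isSylowIn_eq_bot_iff hQ).1 e hqM) (fun e => ?_) fun c hc hc1 v hv e => ?_).resolve_right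
      fun e => hp2 e.1
    · obtain ⟨k, hk⟩ := exists_card_eq_pow hQ.isPGroup
      exact hpq ((Nat.prime_dvd_prime_iff_eq hp hq).1 (hp.dvd_of_dvd_pow (hk ▸ e)))
    · by_contra hv1
      refine h (adj_of_commute hp hq hpq e.symm ?_ ?_)
      · rw [← Nat.card_zpowers]
        exact dvd_card_of_isPGroup (isPGroup_of_le (S.isPGroup'.map _) (zpowers_le_of_mem hc))
          (by simpa using hc1)
      · rw [← Nat.card_zpowers]
        exact dvd_card_of_isPGroup (isPGroup_of_le hQ.isPGroup (zpowers_le_of_mem hv))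
          (by simpa using hv1)
  have h2 : IsCyclic (S : Subgroup 𝐍(Q)) :=
    isCyclic_of_surjective _ (equivMapOfInjective _ _ (𝐍(Q)).subtype_injective).symm.surjective
  have h3 : IsCyclic (Sylow.mapSurjective hf S : Subgroup (G ⧸ M)) :=
    isCyclic_of_surjective _ (f.subgroupMap_surjective S)
  exact Subgroup.isCyclic_of_le hP'

theorem exists_lift {M L : Subgroup G} [M.Normal] (hL : ∀ g : G, ∃ l ∈ L, l⁻¹ * g ∈ M) {u : G}
    (hu : (orderOf u).Prime) (hM : ¬ orderOf u ∣ Nat.card M) :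
    ∃ x ∈ L, orderOf x = orderOf u ∧ x⁻¹ * u ∈ M := by
  obtain ⟨l, hl, h⟩ := hL u
  have e1 : (l : G ⧸ M) = u := QuotientGroup.eq.2 h
  have h1 : l ^ orderOf u ∈ M := (QuotientGroup.eq_one_iff _).1 (by
    rw [QuotientGroup.mk_pow, e1, ← QuotientGroup.mk_pow, pow_orderOf_eq_one, QuotientGroup.mk_one])
  obtain ⟨e, e0, e2⟩ := Nat.chineseRemainder ((Nat.Prime.coprime_iff_not_dvd hu).2 hM) 1 0
  have e3 : ((l ^ e : G) : G ⧸ M) = u := by
    rw [QuotientGroup.mk_pow, e1, ← QuotientGroup.mk_pow, pow_eq_pow_iff_modEq.2 e0, pow_one]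
  have := Fact.mk hu
  refine ⟨l ^ e, pow_mem hl e, orderOf_eq_prime ?_ fun h0 => hM ?_, QuotientGroup.eq.1 e3⟩
  · rw [← pow_mul, mul_comm, pow_mul]
    exact orderOf_dvd_iff_pow_eq_one.1 ((M.orderOf_dvd_natCard h1).trans
      (Nat.modEq_zero_iff_dvd.1 e2))
  · rw [h0] at e3
    exact M.orderOf_dvd_natCard ((QuotientGroup.eq_one_iff u).1 e3.symm)

theorem unb_of_adj {M : Subgroup G} [M.Normal] (h2 : 2 ∣ Nat.card M)
    (h : ∀ q : ℕ, q.Prime → q ≠ 2 → q ∣ Nat.card M → Adj G q 2) : Unb G := by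
  have := Fact.mk Nat.prime_two
  obtain ⟨T, hT⟩ := exists_isSylowIn 2 M
  obtain ⟨L, ⟨hLT, hL⟩, hmin⟩ := exists_minimal_of_wellFoundedLT
    (fun L : Subgroup G => L ≤ 𝐍(T) ∧ ∀ g : G, ∃ l ∈ L, l⁻¹ * g ∈ M) ⟨_, le_rfl, exists_supp hT⟩
  set K := L ⊓ M with hK
  have nK : L ≤ 𝐍(K) := le_normalizer_inf le_normalizer (le_normalizer_of_normal' _ _)
  have nil : Group.IsNilpotent K := by
    refine isNilpotent_of_le (isNilpotent_Phi L) (le_Phi inf_le_left fun N hN => ?_)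
    by_contra hKN
    have e : K ⊔ N = L := (hN.eq_or_eq le_sup_right (sup_le inf_le_left hN.le)).resolve_left
      fun e => hKN (e ▸ le_sup_left)
    refine hN.lt.not_ge (hmin ⟨hN.le.trans hLT, fun g => ?_⟩ hN.le)
    obtain ⟨l, hl, hg⟩ := hL g
    obtain ⟨b, hb, a, ha, rfl⟩ := (mem_sup_iff_of_norm (Or.inr (hN.le.trans nK))).1
      ((sup_comm K N ▸ e).ge hl)
    refine ⟨b, hb, ?_⟩
    rw [show b⁻¹ * g = a * ((b * a)⁻¹ * g) by group]
    exact mul_mem ha.2 hg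
  by_cases hgood : ∃ p : ℕ, p.Prime ∧ p ∣ Nat.card K ∧
      ∀ q : ℕ, q.Prime → q ≠ p → q ∣ Nat.card M → Adj G q p
  · obtain ⟨p, hp, hpK, hq⟩ := hgood
    obtain ⟨V, v1, v2, -, v4, v5⟩ := exists_ea nil hp hpK
    exact unb_of_module hp v1 v2.1 v2.2 (nK.trans v5) v4 fun u u1 u2 u3 =>
      ⟨fun hu => u3 (hq _ u1 u2 (M.orderOf_dvd_natCard hu)), hL u⟩
  push Not at hgood
  have oK : ¬ 2 ∣ Nat.card K := fun e =>
    let ⟨q, q1, q2, q3, q4⟩ := hgood 2 Nat.prime_two e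
    q4 (h q q1 q2 q3)
  obtain ⟨V, v1, v2, v3, -, v5⟩ := exists_ea (isNilpotent_of_isPGroup hT.isPGroup) Nat.prime_two
    (dvd_card_of_isPGroup hT.isPGroup fun e => (isSylowIn_eq_bot_iff hT).1 e h2)
  have nV := hLT.trans v5
  let S : Set G := {x | x ∈ L ∧ (orderOf x).Prime ∧ orderOf x ≠ 2 ∧ ¬ Adj G (orderOf x) 2}
  have sM : ∀ x ∈ S, ¬ orderOf x ∣ Nat.card M := fun x hx e => hx.2.2.2 (h _ hx.2.1 hx.2.2.1 e)
  have st : ∀ x ∈ S, ∀ k ∈ K, x * k * x⁻¹ * k⁻¹ ∈ 𝐂(V) := fun x hx k hk => by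
    have cx := Nat.card_zpowers x
    have xL := zpowers_le_of_mem hx.1
    have cp : (Nat.card K).Coprime (Nat.card (zpowers x)) := by
      rw [cx]
      exact ((Nat.Prime.coprime_iff_not_dvd hx.2.1).2 fun e =>
        sM x hx (e.trans (card_dvd_of_le inf_le_right))).symm
    have sd := sdProd_sup (xL.trans nK) (inf_eq_bot_of_coprime' cp)
    have od : Odd (Nat.card ↥(K ⊔ zpowers x)) := by
      rw [← sd.card, cx]
      exact (Nat.odd_iff.2 (Nat.two_dvd_ne_zero.1 oK)).mul (hx.2.1.odd_of_ne_two hx.2.2.1)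
    have pV := isPGroup_of_le hT.isPGroup v3
    refine odd_prime_sdprod_rfix0 sd (oddOrder _ od) od cp (cx ▸ hx.2.1)
      ((sup_le inf_le_left xL).trans nV) ?_
      (isSolvable_of_isNilpotent (isNilpotent_of_isPGroup pV)) ?_
      (commutator_mem_commutator (mem_zpowers x) hk)
    · obtain ⟨n, hn⟩ := exists_card_eq_pow pV
      rw [hn]
      exact (Nat.coprime_two_left.2 od).pow_left n
    · refine (eq_bot_iff_forall _).2 fun v hv => by_contra fun hv1 => hx.2.2.2 ?_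
      exact adj_of_commute hx.2.1 Nat.prime_two hx.2.2.1
        (mem_centralizer_iff.1 hv.2 x (mem_zpowers x)) dvd_rfl
        (orderOf_eq_prime (v2.2 v hv.1) hv1).symm.dvd
  have RL : closure S ≤ L := (closure_le _).2 fun x hx => hx.1
  refine unb_of_module (M := M) (R := closure S) Nat.prime_two v1 v2.1 v2.2 (RL.trans nV) ?_
    fun u u1 u2 u3 => ?_
  swap
  · have uM : ¬ orderOf u ∣ Nat.card M := fun e => u3 (h _ u1 u2 e)
    obtain ⟨x, x1, x2, x3⟩ := exists_lift hL u1 uM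
    exact ⟨fun e => uM (M.orderOf_dvd_natCard e), x,
      subset_closure ⟨x1, x2 ▸ u1, x2 ▸ u2, x2 ▸ u3⟩, x3⟩
  set R := closure S with hR
  have nC : (𝐂(V).subgroupOf R).Normal := (normal_subgroupOf_iff_le_normalizer_inf).2
    (le_normalizer_inf ((RL.trans nV).trans (normalizer_le_normalizer_centralizer _)) le_normalizer)
  let π := QuotientGroup.mk' (𝐂(V).subgroupOf R)
  have hπ : Function.Surjective π := QuotientGroup.mk'_surjective _
  have hS : closure (π '' (R.subtype ⁻¹' S)) = ⊤ := by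
    rw [← MonoidHom.map_closure, closure_preimage_eq_top, map_top_of_surjective _ hπ]
  have ce : ∀ k : R, (k : G) ∈ M → π k ∈ center _ := fun k hk => by
    have : centralizer {π k} = ⊤ := by
      rw [eq_top_iff, ← hS, closure_le]
      rintro _ ⟨x, hx, rfl⟩
      refine mem_centralizer_singleton_iff.2 ?_
      rw [← mul_inv_eq_one, mul_inv_rev, ← mul_assoc, ← map_inv, ← map_inv, ← map_mul, ← map_mul,
        ← map_mul]
      exact (QuotientGroup.eq_one_iff _).2 (st x hx k ⟨RL k.2, hk⟩)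
    exact mem_center_iff.2 fun g => mem_centralizer_singleton_iff.1 (this.ge (mem_top g))
  intro k hk
  by_contra hkC
  have z1 : π ⟨k, hk.1⟩ ≠ 1 := fun e => hkC ((QuotientGroup.eq_one_iff (⟨k, hk.1⟩ : R)).1 e)
  obtain ⟨p, hp, hpz⟩ := Nat.exists_prime_and_dvd (orderOf_eq_one_iff.not.2 z1)
  have := Fact.mk hp
  have pK : p ∣ Nat.card K := (hpz.trans (orderOf_map_dvd π _)).trans
    (orderOf_mk k hk.1 ▸ K.orderOf_dvd_natCard ⟨RL hk.1, hk.2⟩)
  obtain ⟨q, q1, q2, q3, q4⟩ := hgood p hp pK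
  have oz := orderOf_pow_orderOf_div (orderOf_pos _).ne' hpz
  set z := π ⟨k, hk.1⟩ ^ (orderOf (π ⟨k, hk.1⟩) / p)
  obtain ⟨P', hP'⟩ := (IsPGroup.of_card (n := 1) (by rw [Nat.card_zpowers, oz, pow_one]) :
    IsPGroup p (zpowers z)).exists_le_sylow
  obtain ⟨P, rfl⟩ := Sylow.mapSurjective_surjective hπ p P'
  let ρ : R →* G ⧸ M := (QuotientGroup.mk' M).comp R.subtype
  have cy := cyclic_quot hp q1 (fun e => oK (e ▸ pK)) q2.symm q3 (fun e => q4 e.symm)
    ((P : Subgroup R).map ρ) (P.isPGroup'.map ρ)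
  obtain ⟨a, ha⟩ := isCyclic_iff_exists_zpowers.1 cy
  obtain ⟨c, -, rfl⟩ : a ∈ (P : Subgroup R).map ρ := ha ▸ mem_zpowers a
  have dc : ∀ x ∈ (P : Subgroup R), ∃ n : ℤ, ∃ y ∈ center _, π x = π c ^ n * y := fun x hx => by
    obtain ⟨n, hn⟩ := mem_zpowers_iff.1 (ha.ge (mem_map_of_mem ρ hx))
    refine ⟨n, π ((c ^ n)⁻¹ * x), ce _ ?_, by simp⟩
    rw [← map_zpow] at hn
    exact QuotientGroup.eq.1 hn
  refine hp.one_lt.ne ?_
  rw [← oz, eq_comm, orderOf_eq_one_iff]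
  refine eq_one_of_central hS ?_ _ ?_ (pow_mem (ce _ hk.2) _) (hP' (mem_zpowers z))
  · rintro _ ⟨x, hx, rfl⟩ e
    have e1 := e.trans (orderOf_map_dvd π x)
    rw [← orderOf_coe] at e1
    exact sM x hx ((Nat.prime_dvd_prime_iff_eq hp hx.2.1).1 e1 ▸
      pK.trans (card_dvd_of_le inf_le_right))
  · rintro _ ⟨x, hx, rfl⟩ _ ⟨y, hy, rfl⟩
    obtain ⟨n, a, ha, e1⟩ := dc x hx
    obtain ⟨m, b, hb, e2⟩ := dc y hy
    rw [e1, e2]
    exact (((Commute.zpow_zpow_self _ n m).mul_right (mem_center_iff.1 hb _)).mul_left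
      (mem_center_iff.1 ha _).symm).eq

theorem almost_simple [Nontrivial G] (h : ¬ Unb G) : ∃ N : Subgroup G, N.Normal ∧
    IsSimpleGroup N ∧ ¬ IsMulCommutative N ∧ centralizer (N : Set G) = ⊥ := by
  have ev : ∀ K : Subgroup G, ¬ Group.IsSolvable K → 2 ∣ Nat.card K := fun K hK =>
    by_contra fun e => hK (oddOrder _ (Nat.odd_iff.2 (Nat.two_dvd_ne_zero.1 e)))
  obtain ⟨V, hV, -⟩ := exists_isMinNormal_le (X := (⊤ : Subgroup G)) inferInstance top_ne_bot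
  have := hV.1
  have ns : ∀ K : Subgroup G, K.Normal → K ≠ ⊥ → ¬ Group.IsSolvable K := fun K _ h1 h2 =>
    h (unb_of_solvable K h1 h2)
  have aux : ∀ A B : Subgroup G, ¬ Group.IsSolvable B → (∀ a ∈ A, ∀ b ∈ B, a * b = b * a) →
      ∀ q : ℕ, q.Prime → q ≠ 2 → q ∣ Nat.card A → Adj G q 2 := fun A B hB hc q q1 q2 q3 => by
    have := Fact.mk q1
    have := Fact.mk Nat.prime_two
    obtain ⟨a, ha⟩ := exists_prime_orderOf_dvd_card' q q3
    obtain ⟨b, hb⟩ := exists_prime_orderOf_dvd_card' 2 (ev B hB)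
    exact adj_of_commute q1 Nat.prime_two q2 (hc a a.2 b b.2) (by rw [orderOf_coe, ha])
      (by rw [orderOf_coe, hb])
  obtain ⟨p, -, hc, -⟩ | ⟨T, hT, hTV⟩ := hV.structure
  · exact absurd (Group.isSolvable_of_comm fun a b => Subtype.ext (hc a a.2 b b.2)) (ns V hV.1 hV.2.1)
  by_contra hn
  refine h (unb_of_adj (ev V (ns V hV.1 hV.2.1)) ?_)
  by_cases e : T = V
  · subst e
    exact aux T (centralizer T) (ns _ inferInstance fun e => hn ⟨T, hV.1, hT.1, hT.2, e⟩)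
      fun a ha b hb => mem_centralizer_iff.1 hb a ha
  · obtain ⟨g, hg⟩ := hV.exists_conj_ne hT hTV e
    intro q q1 q2 q3
    refine aux T _ (hT.conj g).not_isSolvable ((hT.eq_or_commute hTV (hT.conj g)
      (hTV.conj_of_normal g)).resolve_left hg.symm) q q1 q2 (by_contra fun hq => ?_)
    have : V ≤ core {q}ᶜ V := by
      conv_lhs => rw [hV.eq_iSup_conj hT.ne_bot hTV.le]
      refine iSup_le fun g => le_core ⟨(hTV.conj_of_normal g).1, (hTV.conj_of_normal g).2⟩ ?_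
      rw [piGrp_compl_singleton_iff q1, card_map_of_injective (MulAut.conj g).injective]
      exact hq
    exact (piGrp_compl_singleton_iff q1).1 ((piGrp_core _ V).of_le this) q3

end Cfsg.Agent.PG
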