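import Cfsg.Agent.Spec.Cusp
import Cfsg.Agent.Local.Coprime

/-!
Groups whose prime graph is shared by arbitrarily large groups: the module criterion.
-/

set_option autoImplicit false

namespace Cfsg.Agent.PG

open Subgroup Cfsg.Agent.Spec

variable (G : Type*) [Group G]

/-- `p` and `q` are joined -/
def Adj (p q : ℕ) : Prop := ∃ g : G, orderOf g = p * q

/-- the same prime graph -/
def Same (H : Type*) [Group H] : Prop :=
  (∀ p : ℕ, p.Prime → (p ∣ Nat.card G ↔ p ∣ Nat.card H)) ∧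
    ∀ p q : ℕ, p.Prime → q.Prime → p ≠ q →
      ((∃ g : G, orderOf g = p * q) ↔ (∃ g : H, orderOf g = p * q))

/-- arbitrarily large groups have the prime graph of `G` -/
def Unb : Prop := ∀ N : ℕ, ∃ (H : Type) (_ : Group H) (_ : Fintype H), N < Nat.card H ∧ Same G H

variable {G} [Finite G]

theorem adj_of_commute {a b : G} {p q : ℕ} (hp : p.Prime) (hq : q.Prime) (hpq : p ≠ q)
    (hab : a * b = b * a) (ha : p ∣ orderOf a) (hb : q ∣ orderOf b) : Adj G p q :=
  Local.exists_orderOf_eq_mul_of_commute ((Nat.coprime_primes hp hq).2 hpq) hab ha hb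

omit [Finite G] in
theorem Adj.symm {p q : ℕ} (h : Adj G p q) : Adj G q p := by
  rwa [Adj, mul_comm]

theorem unb_of_solvable (K : Subgroup G) [K.Normal] (hK : K ≠ ⊥) (hs : Group.IsSolvable K) :
    Unb G := fun N =>
  exists_large_same_primeGraph K hK hs (fun _ _ => Iff.rfl) (fun _ _ _ _ _ => Iff.rfl) N

/-- the module criterion -/
theorem unb_of_module {M V R : Subgroup G} [M.Normal] {p : ℕ} (hp : p.Prime) (hV : V ≠ ⊥)
    (hc : ∀ a ∈ V, ∀ b ∈ V, a * b = b * a) (he : ∀ a ∈ V, a ^ p = 1)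
    (hR : R ≤ normalizer (V : Set G)) (hM : R ⊓ M ≤ centralizer (V : Set G))
    (hu : ∀ u : G, (orderOf u).Prime → orderOf u ≠ p → ¬ Adj G (orderOf u) p →
      u ∉ M ∧ ∃ r ∈ R, r⁻¹ * u ∈ M) : Unb G := by
  classical
  letI : CommGroup V := { (inferInstance : Group V) with
    mul_comm := fun a b => Subtype.ext (hc a a.2 b b.2) }
  obtain ⟨v, hv, hv1⟩ := (V.bot_or_exists_ne_one).resolve_left hV
  have cv : ∀ r ∈ R, ∀ w ∈ V, r * w * r⁻¹ ∈ V := fun r hr w hw =>
    (mem_normalizer_iff.1 (hR hr) w).1 hw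
  obtain ⟨f, f1, f2⟩ : ∃ f : G → V, (∀ r ∈ R, ∀ g, r⁻¹ * g ∈ M → (f g : G) = r * v * r⁻¹) ∧
      ∀ g, (¬ ∃ r ∈ R, r⁻¹ * g ∈ M) → f g = 1 := by
    refine ⟨fun g => if h : ∃ r ∈ R, r⁻¹ * g ∈ M then
      ⟨h.choose * v * h.choose⁻¹, cv _ h.choose_spec.1 v hv⟩ else 1, fun r hr g hg => ?_,
      fun g h => dif_neg h⟩
    have h : ∃ r ∈ R, r⁻¹ * g ∈ M := ⟨r, hr, hg⟩
    simp only [dif_pos h]
    obtain ⟨h1, h2⟩ := h.choose_spec
    set s := h.choose
    have h3 : r⁻¹ * s ∈ R ⊓ M := mem_inf.2 ⟨mul_mem (inv_mem hr) h1, by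
      have := mul_mem hg (inv_mem h2)
      rwa [show r⁻¹ * g * (s⁻¹ * g)⁻¹ = r⁻¹ * s by group] at this⟩
    have h4 := mem_centralizer_iff.1 (hM h3) v hv
    calc s * v * s⁻¹ = r * (r⁻¹ * s * v) * s⁻¹ := by group
      _ = r * v * r⁻¹ := by rw [← h4]; group
  let P : ℕ → Prop := fun n => n.Prime ∧ n ≠ p ∧ ¬ Adj G n p
  have key : ∀ u : G, P (orderOf u) → ∀ x : G,
      ∏ i ∈ Finset.range (orderOf u), f (x * u ^ i) = 1 := by
    rintro u ⟨u1, u2, u3⟩ x
    obtain ⟨uM, r, hr, hru⟩ := hu u u1 u2 u3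
    have e1 : (r : G ⧸ M) = u := QuotientGroup.eq.2 hru
    by_cases hx : ∃ s ∈ R, s⁻¹ * x ∈ M
    · obtain ⟨s, hs, hsx⟩ := hx
      have e2 : (s : G ⧸ M) = x := QuotientGroup.eq.2 hsx
      have e3 : ∀ i : ℕ, (f (x * u ^ i) : G) = s * r ^ i * v * (s * r ^ i)⁻¹ := fun i =>
        f1 _ (mul_mem hs (pow_mem hr i)) _ (QuotientGroup.eq.1 (by simp [e1, e2]))
      have hcR : s * r * s⁻¹ ∈ normalizer (V : Set G) := hR (mul_mem (mul_mem hs hr) (inv_mem hs))
      let φ : MulAut V := V.normalizerMonoidHom ⟨_, hcR⟩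
      have e4 : ∀ i : ℕ, φ (f (x * u ^ i)) = f (x * u ^ (i + 1)) := fun i => Subtype.ext (by
        change s * r * s⁻¹ * (f (x * u ^ i) : G) * (s * r * s⁻¹)⁻¹ = _
        rw [e3, e3, pow_succ']; group)
      set w := ∏ i ∈ Finset.range (orderOf u), f (x * u ^ i) with hw
      have e5 : φ w = w := by
        rw [hw, map_prod]
        simp only [e4]
        have a1 := Finset.prod_range_succ (fun i => f (x * u ^ i)) (orderOf u)
        have a2 := Finset.prod_range_succ' (fun i => f (x * u ^ i)) (orderOf u)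
        simp only [pow_orderOf_eq_one, pow_zero] at a1 a2
        exact mul_right_cancel (a2.symm.trans a1)
      by_contra hw1
      refine u3 (adj_of_commute (a := s * r * s⁻¹) (b := w) u1 hp u2 ?_ ?_ ?_)
      · have : s * r * s⁻¹ * (w : G) * (s * r * s⁻¹)⁻¹ = w := congrArg Subtype.val e5
        rw [mul_inv_eq_iff_eq_mul] at this
        exact this
      · have := Fact.mk u1
        have o1 : orderOf (u : G ⧸ M) = orderOf u := orderOf_eq_prime
          (by rw [← QuotientGroup.mk_pow, pow_orderOf_eq_one, QuotientGroup.mk_one])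
          fun h => uM ((QuotientGroup.eq_one_iff u).1 h)
        have o2 : orderOf (s * r * s⁻¹) = orderOf r := (MulAut.conj s).orderOf_eq r
        rw [o2, ← o1, ← e1]
        exact orderOf_map_dvd (QuotientGroup.mk' M) r
      · have := Fact.mk hp
        rw [orderOf_eq_prime (he _ w.2) fun h => hw1 (Subtype.ext h)]
    · refine Finset.prod_eq_one fun i _ => f2 _ ?_
      rintro ⟨s, hs, hsx⟩
      refine hx ⟨s * (r ^ i)⁻¹, mul_mem hs (inv_mem (pow_mem hr i)), QuotientGroup.eq.1 ?_⟩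
      have e2 : (s : G ⧸ M) = (x * u ^ i : G) := QuotientGroup.eq.2 hsx
      simp [e1, e2]
  have hk : ∀ a : Additive V, p • a = 0 := fun a =>
    show a.toMul ^ p = 1 from Subtype.ext (he _ a.toMul.2)
  let F : Cusp G (Additive V) P := cuspMk (fun g => Additive.ofMul (f g)) fun u hu x => by
    rw [← ofMul_prod, key u hu x]; rfl
  have : Nontrivial (Cusp G (Additive V) P) := ⟨F, 0, fun h => by
    have h1 : cuspVal F 1 = 0 := by rw [h, map_zero]; rfl
    have h2 : f 1 = 1 := h1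
    have h3 := f1 1 (one_mem R) 1 (by simp)
    rw [h2] at h3
    exact hv1 (by simpa using h3.symm)⟩
  have := Fact.mk hp
  refine exists_large_same_primeGraph_aff (V := Cusp G (Additive V) P) hp (cusp_nsmul p hk)
    ⟨v, orderOf_eq_prime (he v hv) hv1⟩ fun h w h1 h2 h3 h4 => ?_
  by_contra h5
  exact h3 (fpf_of_affNorm_eq_zero (cusp_nsmul p hk) h ((Nat.coprime_primes h1 hp).2 h2)
    (cusp_affNorm_eq_zero h ⟨h1, h2, h5⟩) w h4)

/-- transfer into an abelian Sylow subgroup -/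
theorem eq_one_of_central {X : Type*} [Group X] [Finite X] {p : ℕ} [hp : Fact p.Prime] {S : Set X}
    (hS : closure S = ⊤) (ho : ∀ s ∈ S, ¬ p ∣ orderOf s) (P : Sylow p X)
    (hP : ∀ a ∈ P, ∀ b ∈ P, a * b = b * a) {z : X} (hz : z ∈ center X) (hzP : z ∈ P) : z = 1 := by
  letI : CommGroup P := { (inferInstance : Group P) with
    mul_comm := fun a b => Subtype.ext (hP a a.2 b b.2) }
  let τ := MonoidHom.transfer (MonoidHom.id (P : Subgroup X))
  have h1 : τ = 1 := MonoidHom.eq_of_eqOn_dense hS fun s hs => by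
    obtain ⟨k, hk⟩ := IsPGroup.iff_orderOf.1 P.isPGroup' (τ s)
    have := orderOf_map_dvd τ s
    rw [hk] at this
    rcases k with _ | k
    · exact orderOf_eq_one_iff.1 (by simpa using hk)
    · exact absurd ((dvd_pow_self p k.succ_ne_zero).trans this) (ho s hs)
  have h2 := MonoidHom.transfer_eq_pow (MonoidHom.id (P : Subgroup X)) z fun k g _ => by
    rw [mul_assoc, ← mem_center_iff.1 (pow_mem hz k) g, inv_mul_cancel_left]
  change τ z = _ at h2
  rw [h1] at h2
  have h3 : z ^ (P : Subgroup X).index = 1 := (congrArg Subtype.val h2).symm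
  obtain ⟨k, hk⟩ := IsPGroup.iff_orderOf.1 P.isPGroup' ⟨z, hzP⟩
  rw [← orderOf_coe] at hk
  have h4 := orderOf_dvd_of_pow_eq_one h3
  rcases k with _ | k
  · exact orderOf_eq_one_iff.1 (by simpa using hk)
  · exact absurd ((dvd_pow_self p k.succ_ne_zero).trans (hk ▸ h4)) P.not_dvd_index

end Cfsg.Agent.PG
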